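import Cfsg.Agent.Lib.TwoModels.QuasiDihedralFusion
import Cfsg.Agent.Lib.ModularTwoGroup
import Cfsg.Agent.Lib.Isolated
import Mathlib.GroupTheory.SpecificGroups.KleinFour

/-! Fusion in groups with dihedral Sylow 2-subgroups. -/

set_option autoImplicit false
set_option linter.style.haveILetI false
set_option linter.unusedSectionVars false

namespace CfsgLib.DihedralFusion

open CfsgLib.QDFusion DihedralGroup

section Model

variable {h : ℕ}

theorem two_h : ((h : ZMod (2 * h))) + h = 0 := by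
  rw [← Nat.cast_add, ← two_mul, ZMod.natCast_self]

theorem two_cases [NeZero h] {i : ZMod (2 * h)} (hi : i + i = 0) : i = 0 ∨ i = (h : ZMod (2 * h)) := by
  obtain ⟨n, hn, rfl⟩ : ∃ n : ℕ, n < 2 * h ∧ i = n := ⟨i.val, i.val_lt, (ZMod.natCast_zmod_val i).symm⟩
  rw [← Nat.cast_add, ZMod.natCast_eq_zero_iff] at hi
  rcases Nat.lt_or_ge n h with hn' | hn'
  · left
    have : n = 0 := by
      by_contra h0
      have := Nat.le_of_dvd (by omega) hi
      omega
    rw [this, Nat.cast_zero]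
  · right
    have : n = h := by
      obtain ⟨c, hc⟩ := hi
      have : c = 1 := by
        rcases c with _ | _ | c
        · omega
        · rfl
        · nlinarith
      subst this
      omega
    rw [this]

theorem h_ne [NeZero h] : (h : ZMod (2 * h)) ≠ 0 := fun e => by
  rw [ZMod.natCast_eq_zero_iff] at e
  have := Nat.le_of_dvd (Nat.pos_of_neZero h) e
  have := Nat.pos_of_neZero h
  omega

/-- parity of a rotation index -/
def par (h : ℕ) : ZMod (2 * h) →+* ZMod 2 := ZMod.castHom (dvd_mul_right 2 h) (ZMod 2)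

/-- the index two subgroup containing the reflections of parity `e` -/
def half (h : ℕ) (e : ZMod 2) : DihedralGroup (2 * h) →* Multiplicative (ZMod 2) :=
  MonoidHom.mk' (fun x => match x with
    | .r i => Multiplicative.ofAdd (par h i)
    | .sr i => Multiplicative.ofAdd (par h i + e)) (by
    have key : ∀ a b e : ZMod 2, a + (b + e) = b - a + e ∧ a + e + (b + e) = b - a := by decide
    rintro (i | i) (j | j) <;>
      simp only [r_mul_r, r_mul_sr, sr_mul_r, sr_mul_sr, ← ofAdd_add, map_add, map_sub]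
    · rw [(key _ _ _).1]
    · rw [add_right_comm]
    · rw [(key _ _ _).2])

theorem order_cases [NeZero h] {x : DihedralGroup (2 * h)} (hx : orderOf x = 2) :
    x = r (h : ZMod (2 * h)) ∨ ∃ i, x = sr i := by
  rcases x with i | i
  · left
    have h1 : (r i : DihedralGroup (2 * h)) ^ 2 = 1 := by
      have h2 := pow_orderOf_eq_one (r i : DihedralGroup (2 * h))
      rwa [hx] at h2
    rw [pow_two, r_mul_r, ← r_zero, r.injEq] at h1
    rcases two_cases h1 with e | e
    · rw [e, r_zero, orderOf_one] at hx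
      omega
    · rw [e]
  · exact Or.inr ⟨i, rfl⟩

theorem z_central (x : DihedralGroup (2 * h)) : x * r (h : ZMod (2 * h)) = r (h : ZMod (2 * h)) * x := by
  rcases x with i | i
  · rw [r_mul_r, r_mul_r, add_comm]
  · rw [r_mul_sr, sr_mul_r, sub_eq_add_neg, neg_eq_of_add_eq_zero_left two_h]

theorem conj_sr (j i : ZMod (2 * h)) :
    (r j : DihedralGroup (2 * h)) * sr i * (r j)⁻¹ = sr (i - j - j) := by
  rw [inv_r, r_mul_sr, sr_mul_r, sub_eq_add_neg (i - j) j]

theorem parity_conj [NeZero h] {i i' : ZMod (2 * h)} (hp : par h i = par h i') :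
    ∃ j, (r j : DihedralGroup (2 * h)) * sr i * (r j)⁻¹ = sr i' := by
  obtain ⟨n, rfl⟩ : ∃ n : ℕ, i = n := ⟨i.val, (ZMod.natCast_zmod_val i).symm⟩
  obtain ⟨n', rfl⟩ : ∃ n' : ℕ, i' = n' := ⟨i'.val, (ZMod.natCast_zmod_val i').symm⟩
  rw [par, map_natCast, map_natCast, ZMod.natCast_eq_natCast_iff'] at hp
  refine ⟨(((n : ℤ) - n') / 2 : ℤ), ?_⟩
  rw [conj_sr, sr.injEq]
  have h2 : ((n : ℤ) - n') / 2 + ((n : ℤ) - n') / 2 = (n : ℤ) - n' := by omega
  rw [sub_sub, ← Int.cast_add, h2]
  push_cast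
  ring

theorem orderOf_z [NeZero h] : orderOf (r (h : ZMod (2 * h)) : DihedralGroup (2 * h)) = 2 := by
  haveI := Fact.mk Nat.prime_two
  refine orderOf_eq_prime (by rw [pow_two, r_mul_r, two_h, r_zero]) fun e => h_ne (h := h) ?_
  rw [← r_zero, r.injEq] at e
  exact e

/-- the nonzero value -/
def c2 (a : ZMod 2) : ZMod (2 * h) := if a = 0 then 0 else (h : ZMod (2 * h))

theorem c2_zero : c2 (h := h) 0 = 0 := if_pos rfl
theorem c2_one : c2 (h := h) 1 = (h : ZMod (2 * h)) := if_neg (by decide)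

/-- the underlying function of the four-subgroup -/
def fourFun (i : ZMod (2 * h)) : DihedralGroup 2 → DihedralGroup (2 * h)
  | .r a => r (c2 a)
  | .sr a => sr (i + c2 a)

theorem fourFun_r (i : ZMod (2 * h)) (a : ZMod 2) : fourFun i (r a) = r (c2 a) := rfl
theorem fourFun_sr (i : ZMod (2 * h)) (a : ZMod 2) : fourFun i (sr a) = sr (i + c2 a) := rfl

/-- a four-subgroup through a reflection -/
def fourHom (i : ZMod (2 * h)) : DihedralGroup 2 →* DihedralGroup (2 * h) :=
  MonoidHom.mk' (fourFun i) (by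
    have h2 : (h : ZMod (2 * h)) + h = 0 := two_h
    have hn : -(h : ZMod (2 * h)) = h := neg_eq_of_add_eq_zero_left h2
    have e11 : (1 : ZMod 2) + 1 = 0 := rfl
    have e11' : (1 : ZMod 2) - 1 = 0 := rfl
    have e01 : (0 : ZMod 2) - 1 = 1 := rfl
    have key : ∀ a : ZMod 2, a = 0 ∨ a = 1 := by decide
    rintro (a | a) (b | b) <;> rcases key a with rfl | rfl <;> rcases key b with rfl | rfl <;>
      simp only [r_mul_r, r_mul_sr, sr_mul_r, sr_mul_sr, fourFun_r, fourFun_sr, c2_zero, c2_one, add_zero, zero_add,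
        sub_zero, sub_self, e11, e11', e01, h2, add_sub_cancel_left, sub_add_cancel_left, add_assoc,
        sub_add_eq_sub_sub, hn] <;>
      congr 1 <;> first | abel1 | (linear_combination h2) | (linear_combination (-1 : ZMod (2 * h)) * h2) | skip)

theorem fourHom_r (i : ZMod (2 * h)) (a : ZMod 2) : fourHom i (r a) = r (c2 a) := rfl
theorem fourHom_sr (i : ZMod (2 * h)) (a : ZMod 2) : fourHom i (sr a) = sr (i + c2 a) := rfl

theorem fourHom_injective [NeZero h] (i : ZMod (2 * h)) : Function.Injective (fourHom i) := by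
  have key : ∀ a : ZMod 2, a = 0 ∨ a = 1 := by decide
  have hne : (h : ZMod (2 * h)) ≠ 0 := h_ne
  rintro (a | a) (b | b) e <;> rcases key a with rfl | rfl <;> rcases key b with rfl | rfl <;>
    simp_all [fourHom_r, fourHom_sr, c2_zero, c2_one, eq_comm, DihedralGroup.one_def, -DihedralGroup.r_zero]

end Model

variable {X : Type*} [Group X] [Finite X] {S : Sylow 2 X} {h : ℕ} [NeZero h]
  (eS : ↥(S : Subgroup X) ≃* DihedralGroup (2 * h))

/-- the embedding of the model -/
def ι : DihedralGroup (2 * h) →* X := (S : Subgroup X).subtype.comp eS.symm.toMonoidHom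

theorem ι_injective : Function.Injective (ι eS) := (S : Subgroup X).subtype_injective.comp eS.symm.injective
theorem ι_mem (x : DihedralGroup (2 * h)) : ι eS x ∈ (S : Subgroup X) := (eS.symm x).2
theorem ι_surj {v : X} (hv : v ∈ (S : Subgroup X)) : ∃ x, ι eS x = v := ⟨eS ⟨v, hv⟩, by simp [ι]⟩

/-- central involution -/
def zX : X := ι eS (r (h : ZMod (2 * h)))
/-- reflections -/
def sX (i : ZMod (2 * h)) : X := ι eS (sr i)

theorem orderOf_zX : orderOf (zX eS) = 2 := by rw [zX, orderOf_injective _ (ι_injective eS), orderOf_z]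
theorem orderOf_sX (i : ZMod (2 * h)) : orderOf (sX eS i) = 2 := by
  rw [sX, orderOf_injective _ (ι_injective eS), orderOf_sr]

theorem zX_comm {v : X} (hv : v ∈ (S : Subgroup X)) : v * zX eS = zX eS * v := by
  obtain ⟨x, rfl⟩ := ι_surj eS hv
  rw [zX, ← map_mul, z_central, map_mul]

theorem sX_conj {i i' : ZMod (2 * h)} (hp : par h i = par h i') : IsConj (sX eS i) (sX eS i') := by
  obtain ⟨j, hj⟩ := parity_conj hp
  exact isConj_iff.mpr ⟨ι eS (r j), by rw [sX, sX, ← map_inv, ← map_mul, ← map_mul, hj]⟩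

theorem inv_cases' {v : X} (hv : v ∈ (S : Subgroup X)) (ho : orderOf v = 2) : v = zX eS ∨ ∃ i, v = sX eS i := by
  obtain ⟨x, rfl⟩ := ι_surj eS hv
  rw [orderOf_injective _ (ι_injective eS)] at ho
  rcases order_cases ho with rfl | ⟨i, rfl⟩
  exacts [Or.inl rfl, Or.inr ⟨i, rfl⟩]

include eS in
theorem all_conj_of (hz : ∀ i, IsConj (zX eS) (sX eS i)) (a b : X) (ha : orderOf a = 2) (hb : orderOf b = 2) :
    IsConj a b := by
  have key : ∀ a : X, orderOf a = 2 → IsConj a (zX eS) := by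
    intro a ha
    obtain ⟨v, hv, hvo, hav⟩ := conj_into_sylow S ha (k := 1) rfl
    rcases inv_cases' eS hv hvo with rfl | ⟨i, rfl⟩
    · exact hav
    · exact hav.trans (hz i).symm
  exact (key a ha).trans (key b hb).symm

/-- four-subgroups -/
def four (i : ZMod (2 * h)) : Subgroup X := ((ι eS).comp (fourHom i)).range

theorem four_klein (i : ZMod (2 * h)) : IsKleinFour ↥(four eS i) := by
  let e := MonoidHom.ofInjective (f := (ι eS).comp (fourHom i)) ((ι_injective eS).comp (fourHom_injective i))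
  have h2 : IsKleinFour (DihedralGroup 2) := inferInstance
  exact ⟨(Nat.card_congr e.toEquiv).symm.trans h2.card_four, (Monoid.exponent_eq_of_mulEquiv e).symm.trans h2.exponent_two⟩

theorem four_le' (i : ZMod (2 * h)) : four eS i ≤ (S : Subgroup X) := by
  rintro _ ⟨x, rfl⟩; exact ι_mem eS _

theorem four_mem {i : ZMod (2 * h)} {v : X} :
    v ∈ four eS i ↔ v = 1 ∨ v = zX eS ∨ v = sX eS i ∨ v = sX eS (i + h) := by
  have key : ∀ x : DihedralGroup 2, x = r 0 ∨ x = r 1 ∨ x = sr 0 ∨ x = sr 1 := by decide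
  constructor
  · rintro ⟨x, rfl⟩
    rcases key x with rfl | rfl | rfl | rfl <;>
      simp only [MonoidHom.comp_apply, fourHom_r, fourHom_sr, c2_zero, c2_one, r_zero, map_one, add_zero, zX, sX,
        true_or, or_true]
  · rintro (rfl | rfl | rfl | rfl)
    · exact one_mem _
    · exact ⟨r 1, by rw [MonoidHom.comp_apply, fourHom_r, c2_one]; rfl⟩
    · exact ⟨sr 0, by rw [MonoidHom.comp_apply, fourHom_sr, c2_zero, add_zero]; rfl⟩
    · exact ⟨sr 1, by rw [MonoidHom.comp_apply, fourHom_sr, c2_one]; rfl⟩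

include eS in
/-- A four-subgroup of the Sylow subgroup contains the central involution. -/
theorem zX_mem {U : Subgroup X} (hU : IsKleinFour ↥U) (hUS : U ≤ (S : Subgroup X)) : zX eS ∈ U := by
  classical
  haveI := hU
  by_contra hz
  have hcard : Nat.card U = 4 := IsKleinFour.card_four
  have hsq : ∀ v ∈ U, v * v = 1 := fun v hv => congrArg Subtype.val (IsKleinFour.mul_self (⟨v, hv⟩ : U))
  have hsr : ∀ v ∈ U, v ≠ 1 → ∃ i, v = sX eS i := fun v hv h1 => by
    haveI := Fact.mk Nat.prime_two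
    exact (inv_cases' eS (hUS hv) (orderOf_eq_prime (by rw [pow_two, hsq v hv]) h1)).resolve_left
      fun e => hz (e ▸ hv)
  have hle : (U : Set X).ncard ≤ 2 := by
    rcases Set.eq_empty_or_nonempty ((U : Set X) \ {1}) with he | ⟨v, hv, hv1⟩
    · have : (U : Set X) ⊆ {1} := fun v hv => by
        by_contra h1
        exact (Set.eq_empty_iff_forall_notMem.mp he v) ⟨hv, h1⟩
      exact (Set.ncard_le_ncard this).trans (by simp)
    · have : (U : Set X) ⊆ {1, v} := fun w hw => by
        by_cases hw1 : w = 1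
        · exact Or.inl hw1
        by_cases hwv : w = v
        · exact Or.inr hwv
        exfalso
        obtain ⟨i, rfl⟩ := hsr v hv (by simpa using hv1)
        obtain ⟨j, rfl⟩ := hsr w hw hw1
        have h1 : sX eS i * sX eS j ∈ U := U.mul_mem hv hw
        have h2 : sX eS i * sX eS j ≠ 1 := fun e => hwv (by
          rw [← inv_eq_of_mul_eq_one_right e]
          exact inv_eq_of_mul_eq_one_right (hsq _ hv))
        obtain ⟨k, hk⟩ := hsr _ h1 h2
        rw [sX, sX, sX, ← map_mul, (ι_injective eS).eq_iff, sr_mul_sr] at hk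
        exact absurd hk (by simp)
      exact (Set.ncard_le_ncard this).trans ((Set.ncard_insert_le _ _).trans (by simp))
  rw [← Nat.card_coe_set_eq] at hle
  change Nat.card U ≤ 2 at hle
  omega

include eS in
theorem not_isolated (hall : ∀ a b : X, orderOf a = 2 → orderOf b = 2 → IsConj a b) (z : X) :
    ¬ Cfsg.IsIsolatedInvolution z := by
  intro hz
  obtain ⟨g, hg⟩ := isConj_iff.mp (hall (zX eS) z (orderOf_zX eS) hz.1)
  obtain ⟨f, hf⟩ := isConj_iff.mp (hall z (g * sX eS 0 * g⁻¹) hz.1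
    ((MulEquiv.orderOf_eq (MulAut.conj g) _).trans (orderOf_sX eS 0)))
  have h1 : Commute (sX eS 0) (zX eS) := zX_comm eS (ι_mem eS _)
  have h2 := hz.2 f (by rw [hf, ← hg]; exact (Commute.conj_iff g).mpr h1.symm)
  rw [hf, ← hg] at h2
  have h3 := mul_left_cancel (mul_right_cancel h2)
  rw [zX, sX, (ι_injective eS).eq_iff] at h3
  exact absurd h3 (by simp)

include eS in
theorem no_two (hall : ∀ a b : X, orderOf a = 2 → orderOf b = 2 → IsConj a b) (H : Subgroup X) :
    H.index ≠ 2 := by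
  intro hH
  haveI := Fact.mk Nat.prime_two
  haveI := Subgroup.normal_of_index_eq_two hH
  have hconjH : ∀ a b : X, IsConj a b → (a ∈ H ↔ b ∈ H) := by
    intro a b hab
    obtain ⟨g, rfl⟩ := isConj_iff.mp hab
    exact ⟨fun ha => Subgroup.Normal.conj_mem inferInstance a ha g, fun hb => by
      have := Subgroup.Normal.conj_mem (inferInstance : H.Normal) _ hb g⁻¹
      simpa [mul_assoc] using this⟩
  have hsz : sX eS 0 * zX eS = sX eS (0 + (h : ZMod (2 * h))) := by
    rw [sX, sX, zX, ← map_mul, sr_mul_r]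
  have hzH : zX eS ∈ H := by
    by_contra hz
    refine hz ((hconjH _ _ (hall _ _ (orderOf_sX eS (0 + (h : ZMod (2 * h)))) (orderOf_zX eS))).mp ?_)
    rw [← hsz]
    exact (Subgroup.mul_mem_iff_of_index_two hH).mpr
      (iff_of_false (fun hs => hz ((hconjH _ _ (hall _ _ (orderOf_sX eS 0) (orderOf_zX eS))).mp hs)) hz)
  have hsH : ∀ i, sX eS i ∈ H := fun i => (hconjH _ _ (hall _ _ (orderOf_zX eS) (orderOf_sX eS i))).mp hzH
  refine S.not_dvd_index ((dvd_of_eq hH.symm).trans (Subgroup.index_dvd_of_le fun v hv => ?_))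
  obtain ⟨x, rfl⟩ := ι_surj eS hv
  rcases x with i | i
  · rw [show (r i : DihedralGroup (2 * h)) = sr 0 * sr i by rw [sr_mul_sr, sub_zero], map_mul]
    exact mul_mem (hsH 0) (hsH i)
  · exact hsH i

include eS in
theorem z_conj_of_index {i : ZMod (2 * h)}
    (h3 : 3 ∣ (Subgroup.centralizer (four eS i : Set X)).relIndex (Subgroup.normalizer (four eS i : Set X))) :
    IsConj (zX eS) (sX eS i) := by
  classical
  haveI := Fact.mk Nat.prime_three
  set N := Subgroup.normalizer (four eS i : Set X)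
  set C := Subgroup.centralizer (four eS i : Set X)
  obtain ⟨g, hgN, hgC, hodd⟩ : ∃ g ∈ N, g ∉ C ∧ Odd (orderOf g) := by
    obtain ⟨R⟩ : Nonempty (Sylow 3 ↥N) := inferInstance
    by_cases hR : (R : Subgroup ↥N) ≤ C.subgroupOf N
    · exact absurd (h3.trans (Subgroup.index_dvd_of_le hR)) R.not_dvd_index
    · obtain ⟨g, hg, hgC⟩ := SetLike.not_le_iff_exists.mp hR
      refine ⟨g, g.2, hgC, ?_⟩
      obtain ⟨k, hk⟩ := R.isPGroup' ⟨g, hg⟩
      have h2 : (g : X) ^ 3 ^ k = 1 := congrArg (fun w : ↥(R : Subgroup ↥N) => ((w : ↥N) : X)) hk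
      exact (Odd.pow (by decide : Odd 3)).of_dvd_nat (orderOf_dvd_of_pow_eq_one h2)
  have hmem : ∀ t ∈ four eS i, g * t * g⁻¹ ∈ four eS i := fun t ht => (Subgroup.mem_normalizer_iff.mp hgN t).mp ht
  have hi' : sX eS (i + h) = zX eS * sX eS i := by
    rw [sX, sX, zX, ← map_mul, r_mul_sr, sub_eq_add_neg, neg_eq_of_add_eq_zero_left two_h]
  have hzM : zX eS ∈ four eS i := (four_mem eS).mpr (Or.inr (Or.inl rfl))
  have hz1 : zX eS ≠ 1 := fun e => by
    have := orderOf_zX eS
    rw [e, orderOf_one] at this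
    omega
  have hnfix : ∀ t ∈ four eS i, t ≠ 1 → g * t * g⁻¹ ≠ t := by
    intro t ht ht1 hfix
    haveI := four_klein eS i
    refine hgC (mem_of_sq_mem hodd (Subgroup.mem_centralizer_iff.mpr fun u hu => ?_))
    have h6 : g * g * u * (g * g)⁻¹ = u := by
      rw [show g * g * u * (g * g)⁻¹ = g * (g * u * g⁻¹) * g⁻¹ by group]
      by_cases h1 : u = 1
      · rw [h1]; group
      by_cases h2 : u = t
      · rw [h2, hfix, hfix]
      by_cases h5 : g * u * g⁻¹ = u
      · rw [h5, h5]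
      have h4 : g * u * g⁻¹ ≠ t := fun e => h2 (mul_left_cancel (mul_right_cancel (e.trans hfix.symm)))
      have e : g * u * g⁻¹ = t * u := congrArg Subtype.val (IsKleinFour.eq_mul_of_ne_all
        (x := (⟨t, ht⟩ : four eS i)) (y := ⟨u, hu⟩) (z := ⟨_, hmem u hu⟩)
        (fun e => ht1 (congrArg Subtype.val e)) (fun e => h1 (congrArg Subtype.val e))
        (fun e => h2 (congrArg Subtype.val e).symm) (fun e => h1 (conj_eq_one_iff.mp (congrArg Subtype.val e)))
        (fun e => h4 (congrArg Subtype.val e)) (fun e => h5 (congrArg Subtype.val e)))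
      have htt : t * t = 1 := congrArg Subtype.val (IsKleinFour.mul_self (⟨t, ht⟩ : four eS i))
      rw [e, ← conj_mul, hfix, e, ← mul_assoc, htt, one_mul]
    exact (mul_inv_eq_iff_eq_mul.mp h6).symm
  have hc1 : IsConj (zX eS) (g * zX eS * g⁻¹) := isConj_iff.mpr ⟨g, rfl⟩
  rcases (four_mem eS).mp (hmem _ hzM) with e | e | e | e
  · exact absurd (conj_eq_one_iff.mp e) hz1
  · exact absurd e (hnfix _ hzM hz1)
  · exact e ▸ hc1
  · have hc2 : IsConj (zX eS) (g * (g * zX eS * g⁻¹) * g⁻¹) := hc1.trans (isConj_iff.mpr ⟨g, rfl⟩)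
    rcases (four_mem eS).mp (hmem _ (hmem _ hzM)) with e' | e' | e' | e'
    · exact absurd (conj_eq_one_iff.mp (conj_eq_one_iff.mp e')) hz1
    · exfalso
      refine hnfix _ hzM hz1 (mul_inv_eq_iff_eq_mul.mpr ?_)
      have h2 : g * g ∈ Subgroup.centralizer ({zX eS} : Set X) := by
        refine Subgroup.mem_centralizer_singleton_iff.mpr (mul_inv_eq_iff_eq_mul.mp ?_)
        rw [show g * g * zX eS * (g * g)⁻¹ = g * (g * zX eS * g⁻¹) * g⁻¹ by group, e']
      exact Subgroup.mem_centralizer_singleton_iff.mp (mem_of_sq_mem hodd h2)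
    · exact e' ▸ hc2
    · exfalso
      have h3 : g * (g * zX eS * g⁻¹) * g⁻¹ = g * zX eS * g⁻¹ := e'.trans e.symm
      exact hnfix _ hzM hz1 (mul_left_cancel (mul_right_cancel h3))

include eS in
/-- With a moving four-group excluded the central involution is not fused to a reflection. -/
theorem z_not_conj (hh : Even h) (hfix : ∀ U : Subgroup X, IsKleinFour ↥U → U ≤ (S : Subgroup X) →
    ∀ n ∈ Subgroup.normalizer (U : Set X), n * zX eS * n⁻¹ = zX eS) (i : ZMod (2 * h)) :
    ¬ IsConj (zX eS) (sX eS i) := by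
  intro hc
  obtain ⟨g, hg⟩ := isConj_iff.mp hc.symm
  set M := Subgroup.centralizer ({zX eS} : Set X)
  have hSM : (S : Subgroup X) ≤ M := fun v hv => Subgroup.mem_centralizer_singleton_iff.mpr (zX_comm eS hv)
  have hsU : sX eS i ∈ four eS i := (four_mem eS).mpr (Or.inr (Or.inr (Or.inl rfl)))
  haveI hK := four_klein eS i
  have hUc : ∀ t ∈ four eS i, t * sX eS i = sX eS i * t := fun t ht => by
    have hsq : ∀ v ∈ four eS i, v * v = 1 := fun v hv => congrArg Subtype.val (IsKleinFour.mul_self (⟨v, hv⟩ : four eS i))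
    have h1 := hsq _ (mul_mem ht hsU)
    calc t * sX eS i = t * ((t * sX eS i) * (t * sX eS i)) * sX eS i := by rw [h1, mul_one]
      _ = (t * t) * (sX eS i * t) * (sX eS i * sX eS i) := by group
      _ = sX eS i * t := by rw [hsq t ht, hsq _ hsU, one_mul, mul_one]
  have hUM : (four eS i).map (MulAut.conj g).toMonoidHom ≤ M := by
    rintro _ ⟨t, ht, rfl⟩
    refine Subgroup.mem_centralizer_singleton_iff.mpr ?_
    show g * t * g⁻¹ * zX eS = zX eS * (g * t * g⁻¹)
    rw [← hg]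
    calc g * t * g⁻¹ * (g * sX eS i * g⁻¹) = g * (t * sX eS i) * g⁻¹ := by group
      _ = g * (sX eS i * t) * g⁻¹ := by rw [hUc t ht]
      _ = g * sX eS i * g⁻¹ * (g * t * g⁻¹) := by group
  obtain ⟨c, hc', hcS⟩ := conj_into S hSM hUM ((S.2.to_le (four_le' eS i)).map _)
  set f := c * g with hf
  set U' := (four eS i).map (MulAut.conj f).toMonoidHom with hU'
  have hU'S : U' ≤ (S : Subgroup X) := by
    rintro _ ⟨t, ht, rfl⟩
    have := hcS _ ⟨t, ht, rfl⟩
    simpa [hf, mul_assoc] using this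
  have hU'K : IsKleinFour ↥U' := by
    let e := (four eS i).equivMapOfInjective (MulAut.conj f).toMonoidHom (MulAut.conj f).injective
    exact ⟨by rw [← Nat.card_congr e.toEquiv]; exact hK.card_four,
      by rw [← Monoid.exponent_eq_of_mulEquiv e]; exact hK.exponent_two⟩
  obtain ⟨q, rfl⟩ := hh
  set w := ι eS (r (q : ZMod (2 * (q + q)))) with hw
  have hqq : (q : ZMod (2 * (q + q))) + q = ((q + q : ℕ) : ZMod (2 * (q + q))) := by push_cast; rfl
  have hwz : w * zX eS * w⁻¹ = zX eS := by rw [zX_comm eS (ι_mem eS _), mul_inv_cancel_right]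
  have hn : -((q + q : ℕ) : ZMod (2 * (q + q))) = ((q + q : ℕ) : ZMod (2 * (q + q))) :=
    neg_eq_of_add_eq_zero_left two_h
  have hwc : ∀ j, w * sX eS j * w⁻¹ = sX eS (j + ((q + q : ℕ) : ZMod (2 * (q + q)))) := fun j => by
    rw [hw, sX, sX, ← map_inv, ← map_mul, ← map_mul, conj_sr, sub_sub, hqq, sub_eq_add_neg, hn]
  have hwN : w ∈ Subgroup.normalizer (four eS i : Set X) := by
    refine Subgroup.mem_normalizer_fintype fun t ht => ?_
    show w * t * w⁻¹ ∈ four eS i
    rw [four_mem]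
    rcases (four_mem eS).mp ht with rfl | rfl | rfl | rfl
    · exact Or.inl (by group)
    · exact Or.inr (Or.inl hwz)
    · exact Or.inr (Or.inr (Or.inr (hwc i)))
    · exact Or.inr (Or.inr (Or.inl (by rw [hwc, add_assoc, two_h, add_zero])))
  have hfs : f * sX eS i * f⁻¹ = zX eS := by
    rw [show f * sX eS i * f⁻¹ = c * (g * sX eS i * g⁻¹) * c⁻¹ by rw [hf]; group, hg,
      Subgroup.mem_centralizer_singleton_iff.mp hc', mul_inv_cancel_right]
  have hnN : f * w * f⁻¹ ∈ Subgroup.normalizer (U' : Set X) := by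
    refine Subgroup.mem_normalizer_fintype ?_
    rintro _ ⟨t, ht, rfl⟩
    refine ⟨w * t * w⁻¹, (Subgroup.mem_normalizer_iff.mp hwN t).mp ht, ?_⟩
    show f * (w * t * w⁻¹) * f⁻¹ = f * w * f⁻¹ * (f * t * f⁻¹) * (f * w * f⁻¹)⁻¹
    group
  have h5 := hfix U' hU'K hU'S _ hnN
  rw [← hfs] at h5
  have h6 : w * sX eS i * w⁻¹ = sX eS i := by
    refine mul_left_cancel (a := f) (mul_right_cancel (b := f⁻¹) ?_)
    rw [← h5]; group
  rw [hwc, sX, sX, (ι_injective eS).eq_iff, sr.injEq, add_eq_left] at h6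
  exact h_ne h6

/-- reflections of parity `e` and even rotations -/
def M (e : ZMod 2) : Subgroup ↥(S : Subgroup X) := ((half h e).comp eS.toMonoidHom).ker

theorem M_index (e : ZMod 2) : (M eS e).index = 2 := by
  rw [M, Subgroup.index_ker]
  have : ((half h e).comp eS.toMonoidHom).range = ⊤ := by
    refine top_unique fun q _ => ?_
    obtain ⟨a, rfl⟩ := Multiplicative.ofAdd.surjective q
    obtain ⟨n, rfl⟩ : ∃ n : ℕ, a = n := ⟨a.val, (ZMod.natCast_zmod_val a).symm⟩
    refine ⟨eS.symm (r (n : ZMod (2 * h))), ?_⟩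
    show half h e (eS (eS.symm (r (n : ZMod (2 * h))))) = _
    rw [MulEquiv.apply_symm_apply]
    show Multiplicative.ofAdd (par h (n : ZMod (2 * h))) = _
    rw [map_natCast]
  rw [this, Subgroup.card_top, Nat.card_congr Multiplicative.toAdd, Nat.card_zmod]

theorem mem_M {e : ZMod 2} {v : ↥(S : Subgroup X)} : v ∈ M eS e ↔ half h e (eS v) = 1 := MonoidHom.mem_ker

theorem r_odd_order [NeZero h] {i : ZMod (2 * h)} (hk : ∃ k, h = 2 ^ k) (hi : par h i ≠ 0) :
    ((r i : DihedralGroup (2 * h))) ^ h ≠ 1 := by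
  obtain ⟨n, rfl⟩ : ∃ n : ℕ, i = n := ⟨i.val, (ZMod.natCast_zmod_val i).symm⟩
  intro e
  rw [r_pow, ← r_zero, r.injEq, ← Nat.cast_mul, ZMod.natCast_eq_zero_iff] at e
  apply hi
  rw [par, map_natCast, ZMod.natCast_eq_zero_iff]
  exact Nat.dvd_of_mul_dvd_mul_right (Nat.pos_of_neZero h) e

theorem M_invariant (hh : Even h) (hk : ∃ k, h = 2 ^ k) (e : ZMod 2)
    (hne : ∀ i, par h i + e ≠ 0 → ¬ IsConj (zX eS) (sX eS i) ∧
      ∀ j, par h j + e = 0 → ¬ IsConj (sX eS j) (sX eS i)) :
    ∀ (g : X) (u v : ↥(S : Subgroup X)), g * (u : X) * g⁻¹ = v → (u ∈ M eS e ↔ v ∈ M eS e) := by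
  have key : ∀ (g : X) (u v : ↥(S : Subgroup X)), g * (u : X) * g⁻¹ = v → u ∈ M eS e → v ∈ M eS e := by
    intro g u v huv hu
    obtain ⟨a, rfl⟩ : ∃ a, eS.symm a = u := ⟨eS u, eS.symm_apply_apply u⟩
    obtain ⟨b, rfl⟩ : ∃ b, eS.symm b = v := ⟨eS v, eS.symm_apply_apply v⟩
    change g * ι eS a * g⁻¹ = ι eS b at huv
    rw [mem_M, MulEquiv.apply_symm_apply] at hu ⊢
    obtain ⟨q, hq⟩ := hh
    have hconj : IsConj (ι eS a) (ι eS b) := isConj_iff.mpr ⟨g, huv⟩
    by_contra hb
    rcases b with i | i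
    · have hb' : par h i ≠ 0 := fun e' => hb (show Multiplicative.ofAdd (par h i) = 1 by rw [e']; rfl)
      apply r_odd_order hk hb'
      apply ι_injective eS
      rw [map_pow, ← huv, conj_pow, ← map_pow]
      have : a ^ h = 1 := by
        rcases a with j | j
        · have hj : par h j = 0 := Multiplicative.ofAdd.injective (show Multiplicative.ofAdd (par h j) = Multiplicative.ofAdd 0 from hu)
          obtain ⟨n, rfl⟩ : ∃ n : ℕ, j = n := ⟨j.val, (ZMod.natCast_zmod_val j).symm⟩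
          rw [par, map_natCast, ZMod.natCast_eq_zero_iff] at hj
          obtain ⟨n', rfl⟩ := hj
          rw [r_pow, ← r_zero, r.injEq, ← Nat.cast_mul, ZMod.natCast_eq_zero_iff]
          exact ⟨n', by ring⟩
        · exact orderOf_dvd_iff_pow_eq_one.mp ((orderOf_sr j).symm ▸ (⟨q, by omega⟩ : 2 ∣ h))
      rw [this, map_one, mul_one, mul_inv_cancel]
    · have hb' : par h i + e ≠ 0 := fun e' => hb (show Multiplicative.ofAdd (par h i + e) = 1 by rw [e']; rfl)
      have ho : orderOf a = 2 := by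
        rw [← orderOf_injective _ (ι_injective eS) a, ← MulEquiv.orderOf_eq (MulAut.conj g), MulAut.conj_apply, huv]
        exact orderOf_sX eS i
      rcases order_cases ho with rfl | ⟨j, rfl⟩
      · exact (hne i hb').1 hconj
      · exact (hne i hb').2 j
          (Multiplicative.ofAdd.injective (show Multiplicative.ofAdd (par h j + e) = Multiplicative.ofAdd 0 from hu)) hconj
  exact fun g u v huv => ⟨key g u v huv, key g⁻¹ v u (by rw [← huv]; group)⟩

include eS in
theorem conj_of_no_index (hh : Even h) (hk : ∃ k, h = 2 ^ k) (hG : ∀ H : Subgroup X, H.index ≠ 2)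
    (hiso : ∀ z : X, ¬ Cfsg.IsIsolatedInvolution z) (i : ZMod (2 * h)) : IsConj (zX eS) (sX eS i) := by
  by_contra hi
  have hother : ∀ j, par h j ≠ par h i → ¬ IsConj (zX eS) (sX eS j) := by
    intro j hj hzj
    have two : ∀ a b c : ZMod 2, a ≠ b → (c = a ∨ c = b) ∧ (a + a = 0) ∧ (c + a ≠ 0 → c = b) ∧ (c + a = 0 → c = a) := by decide
    obtain ⟨K, -, hK, -⟩ := exists_kernel S (M eS (par h j)) (M_index eS _) (M_invariant eS hh hk _ fun l hl => by
      have hli : par h l = par h i := (two _ _ _ hj).2.2.1 hl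
      refine ⟨fun e => hi (e.trans (sX_conj eS hli)), fun j' hj' e => hi ?_⟩
      exact hzj.trans ((sX_conj eS ((two _ _ _ hj).2.2.2 hj').symm).trans (e.trans (sX_conj eS hli))))
    exact hG K hK
  refine hiso (zX eS) (CfsgLib.Isolated.isIsolated_of_sylow (S := S) (orderOf_zX eS) fun g hg => ?_)
  rcases inv_cases' eS hg ((MulEquiv.orderOf_eq (MulAut.conj g) _).trans (orderOf_zX eS)) with e | ⟨j, e⟩
  · exact e
  · exfalso
    have hc : IsConj (zX eS) (sX eS j) := e ▸ isConj_iff.mpr ⟨g, rfl⟩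
    by_cases hj : par h j = par h i
    · exact hi (hc.trans (sX_conj eS hj))
    · exact hother j hj hc

/-- rotations -/
def rot : Subgroup ↥(S : Subgroup X) where
  carrier := {v | ∃ i, eS v = r i}
  one_mem' := ⟨0, by rw [map_one, r_zero]⟩
  mul_mem' := by
    rintro u v ⟨i, hu⟩ ⟨j, hv⟩
    exact ⟨i + j, by rw [map_mul, hu, hv, r_mul_r]⟩
  inv_mem' := by
    rintro u ⟨i, hu⟩
    exact ⟨-i, by rw [map_inv, hu, inv_r]⟩

theorem rot_index : (rot eS).index = 2 := by
  rw [Subgroup.index_eq_two_iff]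
  refine ⟨eS.symm (sr 0), fun b => ?_⟩
  rw [xor_iff_iff_not]
  show (∃ i, eS (b * eS.symm (sr 0)) = r i) ↔ ¬ ∃ i, eS b = r i
  rw [map_mul, MulEquiv.apply_symm_apply]
  rcases eS b with i | i
  · simp [r_mul_sr]
  · simp [sr_mul_sr]

theorem npc (hh : Even h) (hz : ∀ i, ¬ IsConj (zX eS) (sX eS i)) : Cfsg.HasNormalPComplement 2 X := by
  haveI := Fact.mk Nat.prime_two
  obtain ⟨q, hq⟩ := hh
  have hinv : ∀ (g : X) (u v : ↥(S : Subgroup X)), g * (u : X) * g⁻¹ = v → u ∈ rot eS → v ∈ rot eS := by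
    intro g u v huv hu
    obtain ⟨a, rfl⟩ : ∃ a, eS.symm a = u := ⟨eS u, eS.symm_apply_apply u⟩
    obtain ⟨b, rfl⟩ : ∃ b, eS.symm b = v := ⟨eS v, eS.symm_apply_apply v⟩
    change g * ι eS a * g⁻¹ = ι eS b at huv
    obtain ⟨i, hi⟩ := hu
    rw [MulEquiv.apply_symm_apply] at hi
    subst hi
    rcases b with j | j
    · exact ⟨j, MulEquiv.apply_symm_apply _ _⟩
    exfalso
    have ho : orderOf (r i : DihedralGroup (2 * h)) = 2 := by
      rw [← orderOf_injective _ (ι_injective eS), ← MulEquiv.orderOf_eq (MulAut.conj g), MulAut.conj_apply, huv]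
      exact orderOf_sX eS j
    rcases order_cases ho with e | ⟨l, e⟩
    · rw [e] at huv
      exact hz j (isConj_iff.mpr ⟨g, huv⟩)
    · exact absurd e (by simp)
  obtain ⟨H, -, hH, hHM⟩ := exists_kernel S (rot eS) (rot_index eS)
    fun g u v huv => ⟨hinv g u v huv, hinv g⁻¹ v u (by rw [← huv]; group)⟩
  obtain ⟨P, hP, hall⟩ := sylow_of_index_two S H hH (rot eS) (rot_index eS) hHM
  have hrot : ∀ x ∈ (P : Subgroup ↥H), ∃ i, ((x : ↥H) : X) = ι eS (r i) := by
    intro x hx
    rw [hP] at hx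
    have h1 : (⟨(x : X), hx⟩ : ↥(S : Subgroup X)) ∈ H.subgroupOf (S : Subgroup X) := x.2
    rw [hHM] at h1
    obtain ⟨i, hi⟩ := h1
    refine ⟨i, ?_⟩
    rw [← hi]
    simp [ι]
  obtain ⟨K, hKc, hKiff⟩ := CfsgLib.ModularTwoGroup.complement_of_fix P (fun x hx y hy => by
    obtain ⟨i, hi⟩ := hrot x hx
    obtain ⟨j, hj⟩ := hrot y hy
    refine Subtype.ext ?_
    show (x : X) * y = y * x
    rw [hi, hj, ← map_mul, ← map_mul, r_mul_r, r_mul_r, add_comm]) (fun y _ hy e he he2 => by
    by_cases he1 : e = 1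
    · subst he1; group
    have hu : ∀ x ∈ (P : Subgroup ↥H), x * x = 1 → x ≠ 1 → (x : X) = zX eS := by
      intro x hx hx2 hx1
      obtain ⟨i, hi⟩ := hrot x hx
      have h2 : r i * r i = (1 : DihedralGroup (2 * h)) := ι_injective eS (by
        rw [map_mul, ← hi, map_one]; exact congrArg Subtype.val hx2)
      rw [r_mul_r, ← r_zero, r.injEq] at h2
      rcases two_cases h2 with e' | e'
      · exfalso
        apply hx1
        apply Subtype.ext
        rw [hi, e', r_zero, map_one]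
        rfl
      · rw [hi, e']; rfl
    refine Subtype.ext ((hu _ (hy e he) ?_ ?_).trans (hu e he he2 he1).symm)
    · rw [show y * e * y⁻¹ * (y * e * y⁻¹) = y * (e * e) * y⁻¹ by group, he2]; group
    · intro e'; exact he1 (conj_eq_one_iff.mp e'))
  refine CfsgLib.ModularTwoGroup.hasNormalPComplement_of_index_two S hH (K := K.map H.subtype)
    (Subgroup.map_subtype_le K) (fun g hg => ?_) ?_
  · constructor
    · rintro ⟨k, hk, rfl⟩
      rw [Subgroup.coe_subtype, Subgroup.orderOf_coe]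
      exact (hKiff k).mp hk
    · intro ho
      exact ⟨⟨g, hg⟩, (hKiff _).mpr (by rwa [← Subgroup.orderOf_coe]), rfl⟩
  · rw [Subgroup.card_map_of_injective H.subtype_injective, ← hKc.index_eq_card, hP]
    have h1 := ((S : Subgroup X).subgroupOf H).card_mul_index
    have h2 := H.card_mul_index
    have h3 := (S : Subgroup X).card_mul_index
    have h4 := (rot eS).card_mul_index
    obtain ⟨e⟩ := hall P
    rw [← hP, Nat.card_congr e.toEquiv, hP] at h1
    rw [hH] at h2
    rw [rot_index] at h4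
    refine Nat.eq_of_mul_eq_mul_left (Nat.mul_pos (Nat.card_pos (α := rot eS)) two_pos) ?_
    rw [mul_right_comm, h1, h2, h4, h3]

end CfsgLib.DihedralFusion

namespace CfsgLib.DihedralFusion

open CfsgLib.QDFusion DihedralGroup

variable {X : Type*} [Group X] [Finite X] {S : Sylow 2 X}

theorem exists_half {m : ℕ} (hm : 2 ≤ m) (eS : ↥(S : Subgroup X) ≃* DihedralGroup m) :
    ∃ h : ℕ, NeZero h ∧ m = 2 * h ∧ ∃ k, h = 2 ^ k := by
  haveI := Fact.mk Nat.prime_two
  obtain ⟨j, hj⟩ := IsPGroup.iff_card.mp S.2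
  rw [Nat.card_congr eS.toEquiv, DihedralGroup.nat_card] at hj
  rcases j with _ | _ | j
  · omega
  · rw [pow_one] at hj; omega
  · exact ⟨2 ^ j, ⟨by positivity⟩, by rw [pow_succ', pow_succ'] at hj; omega, j, rfl⟩

theorem one_conj (eS : ↥(S : Subgroup X) ≃* DihedralGroup (2 * 1))
    (hiso : ∀ z : X, ¬ Cfsg.IsIsolatedInvolution z) (i : ZMod (2 * 1)) : IsConj (zX eS) (sX eS i) := by
  have hmove : ∀ t ∈ (S : Subgroup X), orderOf t = 2 → ∃ v ∈ (S : Subgroup X), orderOf v = 2 ∧ v ≠ t ∧ IsConj t v := by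
    intro t ht ho
    by_contra hc
    push Not at hc
    refine hiso t (CfsgLib.Isolated.isIsolated_of_sylow (S := S) ho fun g hg => ?_)
    by_contra hne
    exact hc _ hg ((MulEquiv.orderOf_eq (MulAut.conj g) t).trans ho) hne (isConj_iff.mpr ⟨g, rfl⟩)
  obtain ⟨v, hv, hvo, hvne, hzv⟩ := hmove _ (ι_mem eS _) (orderOf_zX eS)
  rcases inv_cases' eS hv hvo with rfl | ⟨j, rfl⟩
  · exact absurd rfl hvne
  by_cases hij : j = i
  · exact hij ▸ hzv
  obtain ⟨w, hw, hwo, hwne, hiw⟩ := hmove _ (ι_mem eS _) (orderOf_sX eS i)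
  rcases inv_cases' eS hw hwo with rfl | ⟨l, rfl⟩
  · exact hiw.symm
  · have key : ∀ i j l : ZMod (2 * 1), j ≠ i → l ≠ i → l = j := by decide
    have hli : l ≠ i := fun e => hwne (by rw [e]; rfl)
    rw [key i j l hij hli] at hiw
    exact hzv.trans hiw.symm

theorem fix_of_eq {h : ℕ} [NeZero h] (eS : ↥(S : Subgroup X) ≃* DihedralGroup (2 * h))
    (H : ∀ U : Subgroup X, U ≤ S → IsKleinFour U → Subgroup.normalizer (U : Set X) =
      Subgroup.centralizer (U : Set X) ⊔ ((S : Subgroup X) ⊓ Subgroup.normalizer (U : Set X)))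
    (U : Subgroup X) (hU : IsKleinFour ↥U) (hUS : U ≤ (S : Subgroup X)) (n : X)
    (hn : n ∈ Subgroup.normalizer (U : Set X)) : n * zX eS * n⁻¹ = zX eS := by
  have hle : Subgroup.centralizer (U : Set X) ⊔ ((S : Subgroup X) ⊓ Subgroup.normalizer (U : Set X)) ≤
      Subgroup.centralizer ({zX eS} : Set X) :=
    sup_le (fun v hv => Subgroup.mem_centralizer_singleton_iff.mpr
      (Subgroup.mem_centralizer_iff.mp hv _ (zX_mem eS hU hUS)).symm)
      (fun v hv => Subgroup.mem_centralizer_singleton_iff.mpr (zX_comm eS hv.1))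
  rw [H U hUS hU] at hn
  rw [Subgroup.mem_centralizer_singleton_iff.mp (hle hn), mul_inv_cancel_right]

theorem npc_one (eS : ↥(S : Subgroup X) ≃* DihedralGroup (2 * 1))
    (H : ∀ U : Subgroup X, U ≤ S → IsKleinFour U → Subgroup.normalizer (U : Set X) =
      Subgroup.centralizer (U : Set X) ⊔ ((S : Subgroup X) ⊓ Subgroup.normalizer (U : Set X))) :
    Cfsg.HasNormalPComplement 2 X := by
  haveI := Fact.mk Nat.prime_two
  have hS : four eS 0 = (S : Subgroup X) := Subgroup.eq_of_le_of_card_ge (four_le' eS 0) (by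
    haveI := four_klein eS 0
    rw [IsKleinFour.card_four (G := ↥(four eS 0)), Nat.card_congr eS.toEquiv, DihedralGroup.nat_card])
  have hK : IsKleinFour ↥(S : Subgroup X) := hS ▸ four_klein eS 0
  have hab : ∀ x ∈ (S : Subgroup X), ∀ x' ∈ (S : Subgroup X), x * x' = x' * x := by
    intro a ha b hb
    haveI := hK
    exact congrArg Subtype.val (mul_comm_of_exponent_two (G := ↥(S : Subgroup X)) hK.exponent_two ⟨a, ha⟩ ⟨b, hb⟩)
  obtain ⟨K, hKc, hKiff⟩ := CfsgLib.ModularTwoGroup.complement_of_fix S hab (fun y _ hy e he _ => by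
    have hyN : y ∈ Subgroup.normalizer ((S : Subgroup X) : Set X) := Subgroup.mem_normalizer_fintype hy
    rw [H _ le_rfl hK] at hyN
    have hle : Subgroup.centralizer ((S : Subgroup X) : Set X) ⊔ ((S : Subgroup X) ⊓ Subgroup.normalizer ((S : Subgroup X) : Set X)) ≤
        Subgroup.centralizer ((S : Subgroup X) : Set X) :=
      sup_le le_rfl (fun v hv => Subgroup.mem_centralizer_iff.mpr fun a ha => hab a ha v hv.1)
    rw [← Subgroup.mem_centralizer_iff.mp (hle hyN) e he, mul_inv_cancel_right])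
  exact ⟨S, K, ⟨fun k hk g => (hKiff _).mpr ((MulEquiv.orderOf_eq (MulAut.conj g) k).symm ▸ (hKiff k).mp hk)⟩, hKc⟩

theorem npc_normalizer (hN : Cfsg.HasNormalPComplement 2 X) (U : Subgroup X) (hUS : U ≤ (S : Subgroup X)) :
    Subgroup.normalizer (U : Set X) =
      Subgroup.centralizer (U : Set X) ⊔ ((S : Subgroup X) ⊓ Subgroup.normalizer (U : Set X)) := by
  haveI := Fact.mk Nat.prime_two
  obtain ⟨P, N, hn, hc⟩ := hN
  have hcardP : Nat.card (P : Subgroup X) = Nat.card (S : Subgroup X) := Nat.card_congr (Sylow.equiv P S).toEquiv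
  have hNcard : Nat.card N = (P : Subgroup X).index := hc.index_eq_card.symm
  have hcop : Nat.Coprime (Nat.card N) (Nat.card (S : Subgroup X)) := by
    rw [hNcard, ← hcardP]; exact P.card_coprime_index.symm
  have hcS : N.IsComplement' (S : Subgroup X) := Subgroup.isComplement'_of_coprime (by
    rw [← hcardP]; exact hc.card_mul) hcop
  refine le_antisymm (fun n hn' => ?_) (sup_le (Subgroup.centralizer_le_normalizer _) inf_le_right)
  obtain ⟨⟨⟨k, hk⟩, ⟨t, ht⟩⟩, hkt⟩ := hcS.2 n
  have hkt' : k * t = n := hkt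
  subst hkt'
  have hfix : ∀ u ∈ U, k * (t * u * t⁻¹) * k⁻¹ = t * u * t⁻¹ ∧ t * u * t⁻¹ ∈ U := by
    intro u hu
    have hv : t * u * t⁻¹ ∈ (S : Subgroup X) := mul_mem (mul_mem ht (hUS hu)) (inv_mem ht)
    have hmem : k * (t * u * t⁻¹) * k⁻¹ ∈ U := by
      have := (Subgroup.mem_normalizer_iff.mp hn' u).mp hu
      simpa [mul_assoc] using this
    have h1 : k * (t * u * t⁻¹) * k⁻¹ * (t * u * t⁻¹)⁻¹ ∈ N ⊓ (S : Subgroup X) := by
      refine ⟨?_, Subgroup.mul_mem _ (hUS hmem) (Subgroup.inv_mem _ hv)⟩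
      rw [show k * (t * u * t⁻¹) * k⁻¹ * (t * u * t⁻¹)⁻¹ = k * ((t * u * t⁻¹) * k⁻¹ * (t * u * t⁻¹)⁻¹) by group]
      exact mul_mem hk (hn.conj_mem _ (inv_mem hk) _)
    rw [hcS.disjoint.eq_bot, Subgroup.mem_bot, mul_inv_eq_one] at h1
    exact ⟨h1, h1 ▸ hmem⟩
  have htN : t ∈ Subgroup.normalizer (U : Set X) := Subgroup.mem_normalizer_fintype fun u hu => (hfix u hu).2
  refine mul_mem (Subgroup.mem_sup_left (Subgroup.mem_centralizer_iff.mpr fun u hu => ?_)) (Subgroup.mem_sup_right ⟨ht, htN⟩)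
  have hu' : t⁻¹ * u * t ∈ U := (Subgroup.mem_normalizer_iff.mp htN _).mpr (by
    rw [show t * (t⁻¹ * u * t) * t⁻¹ = u by group]; exact hu)
  have := (hfix _ hu').1
  rw [show t * (t⁻¹ * u * t) * t⁻¹ = u by group] at this
  exact (mul_inv_eq_iff_eq_mul.mp this).symm

end CfsgLib.DihedralFusion
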